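import Mathlib
import Cfsg.Agent.Base
import Cfsg.Agent.Lib.MaxCl.Rank2
import Cfsg.Agent.Lib.Fusion.GenExtra

/-!
# Odd `p`-groups of rank two with a fixed point free action on the Frattini quotient
-/

set_option autoImplicit false
set_option linter.style.haveILetI false

namespace H25.R2

open Subgroup Cfsg H83.Krek H81 H93
open scoped commutatorElement

universe u

variable {G : Type u} [Group G] {p : ℕ}

theorem mem_cm_closure {S : Set G} {N : Subgroup G} [N.Normal] {s : G} (h : ∀ g ∈ S, ⁅s, g⁆ ∈ N) :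
    s ∈ cm (closure S : Subgroup G) N := fun _ hg =>
  comm_mem_comm (((closure_le (cm {s} N)).2 fun x hx _ e => e ▸ comm_mem_comm (h x hx)) hg s rfl)

theorem commutator_le_of_gens {S : Set G} (hS : closure S = ⊤) {N : Subgroup G} [N.Normal]
    (h : ∀ s ∈ S, ∀ g ∈ S, ⁅s, g⁆ ∈ N) (s g : G) : ⁅s, g⁆ ∈ N :=
  ((closure_le (cm (closure S : Subgroup G) N)).2 fun x hx => mem_cm_closure (h x hx))
    (hS ▸ mem_top s) g (hS ▸ mem_top g)

theorem card_sup_le [Finite G] (hp : p.Prime) {K : Subgroup G} {x : G}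
    (hx : x ∈ normalizer (K : Set G)) (hxp : x ^ p ∈ K) :
    Nat.card (K ⊔ zpowers x : Subgroup G) ≤ Nat.card K * p := by
  by_cases h : x ∈ K
  · rw [sup_eq_left.2 (zpowers_le.2 h)]
    exact Nat.le_mul_of_pos_right _ hp.pos
  · exact (H5.card_sup_zpowers hp hx h hxp).le

/-- The two families of groups with a normal subgroup of order `p ^ 3` and exponent `p`. -/
structure Fam (p : ℕ) (a b z : G) (m s : ℕ) : Prop where
  card : Nat.card G = p ^ (m + 3)
  gen : closure {a, b, z} = ⊤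
  ha : a ^ p = 1
  hb : b ^ p = 1
  hz : z ^ p ^ (m + 1) = 1
  bz : b * z = z * b
  hc : z ^ p ^ m ∈ center G
  hs : ¬ p ∣ s
  ab : a⁻¹ * b * a = b * (z ^ p ^ m) ^ s
  az : a⁻¹ * z * a = z ∨ 1 ≤ m ∧ a⁻¹ * z * a = b * z

namespace Fam

variable {a b z : G} {m s : ℕ} (h : Fam p a b z m s)
include h

theorem gen' : closure {a⁻¹, b, z} = ⊤ := by
  refine eq_top_iff.2 (h.gen.ge.trans ((closure_le _).2 ?_))
  rintro _ (rfl | rfl | rfl)
  · exact inv_mem_iff.1 (subset_closure (by simp))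
  · exact subset_closure (by simp)
  · exact subset_closure (by simp)

theorem cp : (z ^ p ^ m) ^ p = 1 := by rw [← pow_mul, ← pow_succ, h.hz]

theorem cn : (zpowers (z ^ p ^ m)).Normal := H48.normal_of_le_center' (zpowers_le.2 h.hc)

theorem comm_ab : ⁅a⁻¹, b⁆ = (z ^ p ^ m) ^ s := by
  rw [commutatorElement_def, inv_inv, h.ab, mem_center_iff.1 (pow_mem h.hc s) b]
  group

theorem comm_bz : ⁅b, z⁆ = 1 := commutatorElement_eq_one_iff_mul_comm.2 h.bz

theorem b_cm (g : G) : ⁅b, g⁆ ∈ zpowers (z ^ p ^ m) := by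
  haveI := h.cn
  refine mem_cm_closure (S := {a⁻¹, b, z}) ?_ g (h.gen' ▸ mem_top g)
  rintro _ (rfl | rfl | rfl)
  · exact comm_mem_comm (h.comm_ab ▸ npow_mem_zpowers _ _)
  · simp
  · simp [h.comm_bz]

/-- The normal subgroup of order `p ^ 2`. -/
def W (_ : Fam p a b z m s) : Subgroup G := zpowers (z ^ p ^ m) ⊔ zpowers b

theorem W_normal : h.W.Normal := haveI := h.cn; H5.normal_sup_zpowers h.b_cm

theorem W_comm {w : G} (hw : w ∈ h.W) (g : G) : ⁅w, g⁆ ∈ zpowers (z ^ p ^ m) :=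
  haveI := h.cn
  H5.commutator_sup_zpowers_le h.b_cm (commutator_mem_commutator hw (mem_top g))

theorem c_mem : z ^ p ^ m ∈ h.W := mem_sup_left (mem_zpowers _)

theorem b_mem : b ∈ h.W := mem_sup_right (mem_zpowers _)

theorem comm_W (g k : G) : ⁅g, k⁆ ∈ h.W := by
  haveI := h.W_normal
  have h1 : ⁅a⁻¹, z⁆ ∈ h.W := by
    rcases h.az with e | ⟨-, e⟩
    · rw [commutatorElement_def, inv_inv, e, mul_inv_cancel]; exact one_mem _
    · rw [commutatorElement_def, inv_inv, e, mul_inv_cancel_right]; exact h.b_mem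
  have h2 : ∀ g, ⁅b, g⁆ ∈ h.W := fun g => mem_sup_left (h.b_cm g)
  refine commutator_le_of_gens h.gen' ?_ g k
  rintro _ (rfl | rfl | rfl) _ (rfl | rfl | rfl)
  · simp
  · exact comm_mem_comm (h2 _)
  · exact h1
  · exact h2 _
  · exact h2 _
  · exact h2 _
  · exact comm_mem_comm h1
  · exact comm_mem_comm (h2 _)
  · simp

theorem W_le : h.W ≤ zpowers z ⊔ zpowers b := sup_le_sup_right (zpowers_le.2 (npow_mem_zpowers _ _)) _

theorem T_normal : (zpowers z ⊔ zpowers b).Normal := ⟨fun n hn g => by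
  simpa [commutatorElement_def] using mul_mem (h.W_le (h.comm_W g n)) hn⟩

theorem T_sup : zpowers z ⊔ zpowers b ⊔ zpowers a = ⊤ := by
  refine eq_top_iff.2 (h.gen.ge.trans ((closure_le _).2 ?_))
  rintro _ (rfl | rfl | rfl)
  · exact mem_sup_right (mem_zpowers _)
  · exact mem_sup_left (mem_sup_right (mem_zpowers _))
  · exact mem_sup_left (mem_sup_left (mem_zpowers _))

theorem b_cen : b ∈ centralizer (zpowers z : Set G) := by
  rintro _ ⟨i, rfl⟩
  exact (Commute.zpow_left (show Commute z b from h.bz.symm) i).eq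

theorem T_comm : IsMulCommutative (zpowers z ⊔ zpowers b : Subgroup G) :=
  H5.isMulCommutative_sup_zpowers inferInstance h.b_cen

variable [Finite G] [hp : Fact p.Prime]

theorem c_ne : z ^ p ^ m ≠ 1 := fun e => by
  haveI := h.T_normal
  have h1 : Nat.card (zpowers z) ≤ p ^ m := by
    rw [Nat.card_zpowers]
    exact Nat.le_of_dvd (pow_pos hp.out.pos m) (orderOf_dvd_of_pow_eq_one e)
  have h2 := card_sup_le hp.out (centralizer_le_normalizer _ h.b_cen) (h.hb ▸ one_mem _)
  have h3 := card_sup_le hp.out (K := zpowers z ⊔ zpowers b) (x := a)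
    (le_normalizer_of_normal (mem_top a)) (h.ha ▸ one_mem _)
  rw [h.T_sup, card_top, h.card] at h3
  have h4 : p ^ (m + 3) ≤ p ^ (m + 2) := by
    calc _ ≤ _ := h3
      _ ≤ p ^ m * p * p := Nat.mul_le_mul_right _ (h2.trans (Nat.mul_le_mul_right _ h1))
      _ = _ := by ring
  have := (Nat.pow_le_pow_iff_right hp.out.one_lt).1 h4
  omega

theorem not_comm : ¬ Commute a b := fun e => by
  have h1 := h.comm_ab
  rw [e.inv_left.commutator_eq] at h1
  have h2 : orderOf (z ^ p ^ m) = p := orderOf_eq_prime h.cp h.c_ne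
  exact h.hs (h2 ▸ orderOf_dvd_of_pow_eq_one h1.symm)

theorem W_elem : IsElementaryAbelian p h.W ∧ Nat.card h.W = p ^ 2 := by
  have h0 : b ∈ centralizer (zpowers (z ^ p ^ m) : Set G) := fun w hw =>
    (mem_center_iff.1 (zpowers_le.2 h.hc hw) b).symm
  have h1 : Nat.card h.W = p ^ 2 := by
    rw [W, H5.card_sup_zpowers hp.out (centralizer_le_normalizer _ h0) (fun e => h.not_comm
      (mem_center_iff.1 (zpowers_le.2 h.hc e) a)) (h.hb ▸ one_mem _), Nat.card_zpowers,
      orderOf_eq_prime h.cp h.c_ne, sq]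
  refine ⟨⟨H48.isMulCommutative_of_card_sq h1, fun w hw => ?_⟩, h1⟩
  obtain ⟨_, ⟨i, rfl⟩, j, rfl⟩ := (H5.mem_sup_zpowers_iff (centralizer_le_normalizer _ h0)).1 hw
  rw [Commute.mul_pow (mem_center_iff.1 (zpow_mem h.hc i) _).symm, ← zpow_natCast, ← zpow_natCast (b ^ j),
    ← zpow_mul, ← zpow_mul, mul_comm i, mul_comm j, zpow_mul, zpow_mul, zpow_natCast, zpow_natCast,
    h.cp, h.hb, one_zpow, one_zpow, one_mul]

theorem mem_T {g : G} (hg : Commute g b) : g ∈ zpowers z ⊔ zpowers b := by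
  haveI := h.T_normal
  haveI := h.T_comm
  obtain ⟨t, ht, i, rfl⟩ := (H5.mem_sup_zpowers_iff (le_normalizer_of_normal (mem_top a))).1
    (h.T_sup ▸ mem_top g)
  have h1 : Commute t b := setLike_mul_comm ht (mem_sup_right (mem_zpowers b))
  have h2 : a ^ i ∈ centralizer ({b} : Set G) := mem_centralizer_singleton_iff.2
    (show Commute (a ^ i) b by simpa using h1.inv_left.mul_left hg)
  obtain ⟨j, rfl⟩ := H5.dvd_of_zpow_mem hp.out
    (fun e => h.not_comm (mem_centralizer_singleton_iff.1 e)) (h.ha ▸ one_mem _) h2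
  rwa [zpow_mul, zpow_natCast, h.ha, one_zpow, mul_one]

theorem omega_center (hrk : ∀ A : Subgroup G, IsElementaryAbelian p A → Nat.card A ≤ p ^ 2)
    {w : G} (hw : w ∈ center G) (h1 : w ^ p = 1) : w ∈ zpowers (z ^ p ^ m) := by
  have h0 : b ∈ centralizer (zpowers (z ^ p ^ m) : Set G) := fun w hw =>
    (mem_center_iff.1 (zpowers_le.2 h.hc hw) b).symm
  obtain ⟨c, hc, j, rfl⟩ := (H5.mem_sup_zpowers_iff (centralizer_le_normalizer _ h0)).1
    (mem_of_rank hrk h.W_elem.1 h.W_elem.2 (center_le_centralizer _ hw) h1)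
  obtain ⟨j, rfl⟩ := H5.dvd_of_zpow_mem hp.out (K := center G)
    (fun e => h.not_comm (mem_center_iff.1 e a)) (h.hb ▸ one_mem _)
    ((mul_mem_cancel_left (zpowers_le.2 h.hc hc)).1 hw)
  rwa [zpow_mul, zpow_natCast, h.hb, one_zpow, mul_one]

end Fam

variable [Finite G] [hp : Fact p.Prime]

theorem comm_two_of_relIndex (hG : IsPGroup p G) {N M : Subgroup G} [N.Normal] [M.Normal] (h : N ≤ M)
    (hi : N.relIndex M ≤ p ^ 2) {u : G} (hu : u ∈ M) (y z : G) : ⁅⁅u, y⁆, z⁆ ∈ N := by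
  have hc := H1.card_mul_relIndex_of_le h
  have hM : ∀ w ∈ M, ∀ y, ⁅w, y⁆ ∈ M := fun w hw y =>
    commutator_le_left M ⊤ (commutator_mem_commutator hw (mem_top y))
  rcases h.eq_or_lt with rfl | h1
  · exact hM _ (hM _ hu y) z
  obtain ⟨N1, _, h2, h3, h4, h5⟩ := H5.exists_normal_cover hG h1
  refine h5 (commutator_mem_commutator ?_ (mem_top z))
  rcases h3.eq_or_lt with rfl | h6
  · exact hM _ hu y
  obtain ⟨N2, _, h7, h8, h9, h10⟩ := H5.exists_normal_cover hG h6
  obtain rfl : N2 = M := eq_of_le_of_card_ge h8 (by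
    rw [h9, h4, ← hc, mul_assoc, ← sq]; exact Nat.mul_le_mul_left _ hi)
  exact h10 (commutator_mem_commutator hu (mem_top y))

theorem index_frattini_of_metacyclic (hG : IsPGroup p G) (h : IsMetacyclic G) :
    (frattini G).index ≤ p ^ 2 := by
  obtain ⟨N, _, hN, hQ⟩ := h
  obtain ⟨a, rfl⟩ := H5.exists_zpowers_eq hN
  obtain ⟨b, hb⟩ := IsCyclic.exists_generator (α := G ⧸ zpowers a)
  obtain ⟨b, rfl⟩ := QuotientGroup.mk_surjective b
  have hn : ∀ K : Subgroup G, frattini G ≤ K → K.Normal := fun K hK => ⟨fun n hn g => by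
    simpa [commutatorElement_def] using mul_mem (hK (H5.commutatorElement_mem_frattini hG g n)) hn⟩
  haveI := hn (frattini G ⊔ zpowers a) le_sup_left
  have h1 := card_sup_le hp.out (K := frattini G) (x := a) (le_normalizer_of_normal (mem_top a))
    (H5.pow_mem_frattini hG a)
  have h2 := card_sup_le hp.out (K := frattini G ⊔ zpowers a) (x := b)
    (le_normalizer_of_normal (mem_top b)) (mem_sup_left (H5.pow_mem_frattini hG b))
  have h3 : frattini G ⊔ zpowers a ⊔ zpowers b = ⊤ := eq_top_iff.2 fun g _ => by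
    obtain ⟨i, hi⟩ := hb g
    have : (b ^ i)⁻¹ * g ∈ zpowers a := QuotientGroup.eq.1 hi
    simpa using mul_mem (mem_sup_right (zpow_mem_zpowers b i))
      (mem_sup_left (mem_sup_right this) : _ ∈ frattini G ⊔ zpowers a ⊔ zpowers b)
  rw [h3, card_top, ← (frattini G).card_mul_index] at h2
  refine Nat.le_of_mul_le_mul_left (h2.trans ?_) (Nat.card_pos (α := frattini G))
  rw [sq, ← mul_assoc]
  exact Nat.mul_le_mul_right _ h1

/-- The classification in the form used here. -/
theorem cases (h2 : p ≠ 2) (hG : IsPGroup p G)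
    (hrk : ∀ A : Subgroup G, IsElementaryAbelian p A → Nat.card A ≤ p ^ 2) :
    IsMetacyclic G ∨ (∃ a b z : G, ∃ m s, Fam p a b z m s) ∨ p = 3 ∧ ∃ n, 4 ≤ n ∧ MC p n G := by
  by_cases h : ∃ E : Subgroup G, E.Normal ∧ Nat.card E = p ^ 3 ∧ ∀ x ∈ E, x ^ p = 1
  · obtain ⟨E, _, h1, h3⟩ := h
    obtain ⟨x, y, z, m, s, h3, h4, hx, hy, hz, h5, h6, h7, h8, h9⟩ :=
      exists_gens_of_normal h2 hG hrk h1 h3
    exact Or.inr (Or.inl ⟨x, y, z, m, s, h3, h4, hx, hy, hz, h5, h6, h7, h8, h9⟩)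
  obtain rfl | h3 := (show 3 ≤ p from hp.out.two_le.lt_of_ne' h2).eq_or_lt
  · haveI := powerClosure_normal (p := 3) (n := 1) (⊤ : Subgroup G)
    by_cases h0 : AR 3 G
    · exact Or.inl (isMetacyclic_of_index_le h2 hG (card_le_of_lt_pow (hG.to_quotient _) h0))
    obtain ⟨m, h1⟩ := (ar_or_mc _ G rfl hG fun E h1 h2 h3 => h ⟨E, h1, h2, h3⟩).resolve_left h0
    refine Or.inr (Or.inr ⟨rfl, m, ?_, h1⟩)
    obtain rfl | h4 := h1.three.eq_or_lt
    swap
    · exact h4
    refine absurd ⟨⊤, inferInstance, card_top.trans h1.card, fun x hx => ?_⟩ h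
    have h5 := (powerClosure 3 1 (⊤ : Subgroup G)).card_mul_index
    have h6 : Nat.card (powerClosure 3 1 (⊤ : Subgroup G)) = 1 := by
      rw [h1.card] at h5
      have := not_lt.1 h0
      nlinarith [Nat.card_pos (α := powerClosure 3 1 (⊤ : Subgroup G))]
    exact mem_bot.1 (card_eq_one.1 h6 ▸ pow_mem_powerClosure_one hx)
  refine Or.inl (H48.isMetacyclic_of_card_omegaOne_le h3 hG (card_le_of_lt_pow (hG.to_subgroup _)
    (not_le.1 fun h1 => ?_)))
  rw [← H48.closure_pow_eq_omegaOne_top] at h1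
  haveI := H5.characteristic_closure_pow_eq_one (G := G) p
  obtain ⟨E, h2, h4, h5⟩ := H5.exists_normal_le_card_eq hG _ 3 h1
  exact h ⟨E, h2, h5, fun x hx => H5.omega_pow_eq_one_of_rank_two h3 hG hrk (h4 hx)⟩

/-- No quotient is a wreath product. -/
theorem comm_two_mem (h2 : p ≠ 2) (hG : IsPGroup p G)
    (hrk : ∀ A : Subgroup G, IsElementaryAbelian p A → Nat.card A ≤ p ^ 2) {M : Subgroup G}
    (hM : M.index = p) {u : G} (hu : u ∈ M) (y z : G) :
    ⁅⁅u, y⁆, z⁆ ∈ (frattini M).map M.subtype := by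
  haveI := H5.normal_of_index_eq hG hM
  have hP := hG.to_subgroup M
  have key : (frattini M).index ≤ p ^ 2 → ⁅⁅u, y⁆, z⁆ ∈ (frattini M).map M.subtype := fun h =>
    comm_two_of_relIndex hG (map_subtype_le _)
      (by rwa [relIndex, subgroupOf, comap_map_eq_self_of_injective M.subtype_injective]) hu y z
  have key2 : frattini M = ⊥ → (frattini M).index ≤ p ^ 2 := fun h => by
    obtain ⟨h3, h4⟩ := (H5.frattini_eq_bot_iff hP).1 h
    rw [h, index_bot]
    exact hrk M ⟨h3, fun x hx => congrArg Subtype.val (h4 ⟨x, hx⟩)⟩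
  rcases cases h2 hG hrk with h | ⟨a, b, c, m, s, h⟩ | ⟨rfl, n, hn, h⟩
  · exact key (index_frattini_of_metacyclic hP (H48.isMetacyclic_subgroup h M))
  · by_cases h3 : (frattini M).map M.subtype = ⊥
    · exact key (key2 ((map_eq_bot_iff_of_injective _ M.subtype_injective).1 h3))
    obtain ⟨w, h4, h5, h6⟩ := H5.exists_mem_center_orderOf_eq hG _ h3
    have h7 := eq_zpowers_of_card ((Nat.card_zpowers _).trans (orderOf_eq_prime h.cp h.c_ne))
      (h.omega_center hrk h5 (h6 ▸ pow_orderOf_eq_one w)) (by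
        rintro rfl; exact hp.out.ne_one (h6.symm.trans orderOf_one))
    exact zpowers_le.2 h4 (h7 ▸ h.W_comm (h.comm_W u y) z)
  · rcases hn.eq_or_lt with rfl | hn
    swap
    · exact key (h.index_frattini_le hn M)
    by_cases h3 : frattini M = ⊥
    · exact key (key2 h3)
    have h4 := card_mul_le_of_lt ((hP.to_subgroup _)) (bot_lt_iff_ne_bot.2 h3)
    have h5 := (frattini M).card_mul_index
    have h6 := M.card_mul_index
    rw [hM, h.card] at h6
    rw [card_bot] at h4
    exact key (by nlinarith)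

/-- A set of coprime automorphisms fixing `x` and no nonzero vector of the Frattini quotient. -/
structure Act (p : ℕ) (x : G) (B : Set (MulAut G)) : Prop where
  ord : orderOf x = p
  cen : x ∈ center G
  fix : ∀ β ∈ B, β x = x
  star : ∀ t, (∀ β ∈ B, β t * t⁻¹ ∈ frattini G) → t ∈ frattini G
  cop : ∀ β ∈ B, (orderOf β).Coprime p

namespace Act

variable {x : G} {B : Set (MulAut G)} (hA : Act p x B)
include hA

omit [Finite G] hp in
theorem fix_zpowers {β : MulAut G} (hβ : β ∈ B) {w : G} (hw : w ∈ zpowers x) : β w = w := by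
  obtain ⟨i, rfl⟩ := hw
  simp only [map_zpow, hA.fix β hβ]

omit [Finite G] hp in
theorem fix_center (hG : IsPGroup p G) (h : ∀ w ∈ center G, w ^ p = 1 → w ∈ zpowers x)
    {β : MulAut G} (hβ : β ∈ B) {w : G} (hw : w ∈ center G) : β w = w := by
  obtain ⟨k, hk⟩ := hG w
  induction k generalizing w with
  | zero => obtain rfl : w = 1 := by simpa using hk
            exact map_one β
  | succ k ih =>
    have h1 := ih (pow_mem hw p) (by rw [← pow_mul, ← pow_succ', hk])
    have h2 : β w ∈ center G := mem_center_iff.2 fun g => by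
      simpa using congrArg β (mem_center_iff.1 hw (β.symm g))
    refine H5.aut_apply_eq_of_isPGroup hG β (hA.cop β hβ) (hA.fix_zpowers hβ
      (h _ (mul_mem (inv_mem hw) h2) ?_))
    rw [Commute.mul_pow (mem_center_iff.1 h2 _), ← map_pow, h1, inv_pow, inv_mul_cancel]

theorem fam (h2 : p ≠ 2) (hrk : ∀ A : Subgroup G, IsElementaryAbelian p A → Nat.card A ≤ p ^ 2)
    {a b z : G} {m s : ℕ} (h : Fam p a b z m s) :
    IsExtraspecial p G ∧ Nat.card G = p ^ 3 ∧ ∀ y : G, y ^ p = 1 := by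
  have hG := IsPGroup.of_card h.card
  have h1 := eq_zpowers_of_card ((Nat.card_zpowers _).trans (orderOf_eq_prime h.cp h.c_ne))
    (h.omega_center hrk hA.cen (hA.ord ▸ pow_orderOf_eq_one x)) (by
      rintro rfl; exact hp.out.ne_one (hA.ord.symm.trans orderOf_one))
  have h3 := fun β hβ w hw => hA.fix_center hG (fun w hw e => h1 ▸ h.omega_center hrk hw e)
    (β := β) hβ (w := w) hw
  have hcen : ∀ w, a⁻¹ * w * a = w → Commute w b → Commute w z → w ∈ center G := fun w e1 e2 e3 => by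
    refine mem_center_iff.2 fun g => (((closure_le (centralizer {w})).2 ?_) (h.gen ▸ mem_top g) w rfl).symm
    rintro _ (rfl | rfl | rfl)
    · refine mem_centralizer_singleton_iff.2 ?_
      rw [← mul_right_inj _⁻¹, ← mul_assoc _⁻¹ w, e1, inv_mul_cancel_left]
    · exact mem_centralizer_singleton_iff.2 e2.symm.eq
    · exact mem_centralizer_singleton_iff.2 e3.symm.eq
  rcases h.az with e | ⟨hm, e⟩
  · have h4 := hcen z e h.bz.symm rfl
    have h5 : z ∈ frattini G := hA.star z fun β hβ => by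
      rw [h3 β hβ z h4, mul_inv_cancel]; exact one_mem _
    have h6 : closure {a, b} = ⊤ := frattini_nongenerating (eq_top_iff.2 (h.gen.ge.trans
      ((closure_le _).2 (by
        rintro _ (rfl | rfl | rfl)
        · exact mem_sup_left (subset_closure (by simp))
        · exact mem_sup_left (subset_closure (by simp))
        · exact mem_sup_right h5))))
    haveI := h.cn
    have h7 : ∀ g k, ⁅g, k⁆ ∈ zpowers (z ^ p ^ m) := commutator_le_of_gens h6 (by
      rintro _ (rfl | rfl) _ (rfl | rfl)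
      · simp
      · exact comm_mem_comm (h.b_cm _)
      · exact h.b_cm _
      · simp)
    have h8 : ∀ y : G, y ^ p = 1 := fun y => by
      have hy : y ∈ closure {a, b} := h6 ▸ mem_top y
      induction hy using closure_induction with
      | mem _ hx => rcases hx with rfl | rfl
                    exacts [h.ha, h.hb]
      | one => exact one_pow p
      | mul u v _ _ hu hv =>
        have h9 := zpowers_le.2 h.hc (h7 v u)
        rw [H5.mul_pow_eq_of_class_two (mem_center_iff.1 h9 _) (mem_center_iff.1 h9 _)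
          (H5.dvd_choose_two hp.out h2) (h.W_elem.1.2 _ (h.comm_W v u)), hu, hv, one_mul]
      | inv u _ hu => rw [inv_pow, hu, inv_one]
    obtain rfl | m := m
    · exact ⟨isExtraspecial_of_card_cube h.card fun e => h.not_comm
        (commutatorElement_eq_one_iff_mul_comm.1 (mem_bot.1 (e ▸
          commutator_mem_commutator (mem_top a) (mem_top b)))), h.card, h8⟩
    · exact absurd (by rw [pow_succ, pow_mul, h8]) h.c_ne
  exfalso
  haveI := h.T_comm
  have hz : z ∈ zpowers z ⊔ zpowers b := mem_sup_left (mem_zpowers z)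
  have h4 : z ^ p ∈ center G := hcen _ (by
    have := conj_pow (a := a⁻¹) (b := z) (i := p)
    rw [inv_inv, e, Commute.mul_pow h.bz, h.hb, one_mul] at this
    exact this.symm) (Commute.pow_left h.bz.symm p) (Commute.pow_left rfl p)
  have h5 : b = ⁅a⁻¹, z⁆ := by rw [commutatorElement_def, inv_inv, e, mul_inv_cancel_right]
  have h6 : h.W ≤ frattini G := sup_le (zpowers_le.2 (by
    obtain ⟨m, rfl⟩ := Nat.exists_eq_add_of_le' hm
    rw [pow_succ, pow_mul]
    exact H5.pow_mem_frattini hG _)) (zpowers_le.2 (h5 ▸ H5.commutatorElement_mem_frattini hG _ _))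
  have h7 : z ∈ frattini G := hA.star z fun β hβ => by
    have h7 : β z ∈ zpowers z ⊔ zpowers b := h.mem_T (by
      have : Commute z (β.symm b) := setLike_mul_comm hz (h.W_le (by
        rw [congrArg β.symm h5, map_commutatorElement]; exact h.comm_W _ _))
      simpa using this.map β)
    refine h6 (mem_of_rank hrk h.W_elem.1 h.W_elem.2 (fun w hw =>
      setLike_mul_comm (h.W_le hw) (mul_mem h7 (inv_mem hz))) ?_)
    rw [Commute.mul_pow (setLike_mul_comm h7 (inv_mem hz)), ← map_pow, h3 β hβ _ h4, inv_pow,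
      mul_inv_cancel]
  have h8 : zpowers a = ⊤ := frattini_nongenerating (eq_top_iff.2 (h.T_sup.ge.trans (sup_le
    (le_sup_of_le_right (sup_le (zpowers_le.2 h7) (zpowers_le.2 (h6 h.b_mem)))) le_sup_left)))
  obtain ⟨i, hi⟩ : b ∈ zpowers a := h8 ▸ mem_top b
  exact h.not_comm (hi ▸ Commute.zpow_right rfl i)

end Act

theorem sq_three : ∀ e : ZMod 3, e ^ 2 = 0 ∨ e ^ 2 = 1 := by decide

section three

variable [Fact (Nat.Prime 3)] {n : ℕ}

theorem exists_cm (h : MC 3 n G) (hn : 4 ≤ n) : ∃ M : Subgroup G, M.index = 3 ∧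
    ∀ i, i + 4 ≤ n → M = cm (lc G (i + 1)) (lc G (i + 3)) := by
  have key : ∀ M : Subgroup G, M.index = 3 → ∀ i, i + 4 ≤ n → M ≤ cm (lc G (i + 1)) (lc G (i + 3)) →
      M = cm (lc G (i + 1)) (lc G (i + 3)) := fun M hM i hi e =>
    e.eq_or_lt.resolve_right fun e => h.cm_ne_top (i := i + 1) hi
      ((H5.isCoatom_of_index_prime (hM ▸ Fact.out)).2 _ e)
  rcases hn.eq_or_lt with rfl | hn
  swap
  · obtain ⟨M, h1, h2, -⟩ := h.exists_ar hn.le
    exact ⟨M, h1, fun i hi => key M h1 i hi (h.le_cm h2 h1 hn i hi)⟩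
  have h0 : centralizer (lc G 1 : Set G) ≤ cm (lc G 1) (lc G 3) := fun g hg k hk => by
    rw [commutatorElement_eq_one_iff_mul_comm.2 (hg k hk).symm]; exact one_mem _
  have h1 := H5.card_le_card_centralizer_mul_pow h.isPGroup 2 (lc G 1) (h.card_lc (i := 0) rfl)
  obtain ⟨M, h2, -, h3, -⟩ := H5.exists_le_normal_index_eq h.isPGroup
    (K := centralizer (lc G 1 : Set G)) fun e => h.cm_ne_top (i := 1) le_rfl (eq_top_iff.2 (e.ge.trans h0))
  obtain rfl : centralizer (lc G 1 : Set G) = M := eq_of_le_of_card_ge h2 (Nat.le_of_mul_le_mul_right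
    (by simpa [← M.card_mul_index, h3] using h1) (show 0 < 3 by omega))
  exact ⟨_, h3, fun i hi => key _ h3 i hi ((show i = 0 by omega) ▸ h0)⟩

theorem Act.mc_odd {x : G} {B : Set (MulAut G)} (hA : Act 3 x B) (h : MC 3 n G) (hn : 4 ≤ n) :
    Odd n := by
  by_contra hodd
  obtain ⟨r, hr⟩ := Nat.not_odd_iff_even.1 hodd
  obtain ⟨M, hi, hM⟩ := exists_cm h hn
  haveI := H5.normal_of_index_eq h.isPGroup hi
  have h0 := h.lc_one_le hi
  obtain ⟨t, ht, h2⟩ := SetLike.not_le_iff_exists.1 fun h2 : M ≤ lc G 1 => by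
    have := index_dvd_of_le h2
    rw [h.index_lc_one, hi] at this
    omega
  have h3 : lc G 1 ⊔ zpowers t = M := by
    refine H5.eq_sup_zpowers_of_card (p := 3) Fact.out h0 ?_ ht h2
    refine Nat.eq_of_mul_eq_mul_right (show 0 < 3 by omega) ?_
    rw [mul_assoc, show 3 * 3 = 3 ^ 2 from rfl, ← h.index_lc_one, card_mul_index, ← hi,
      card_mul_index]
  obtain ⟨s, -, hs⟩ := SetLike.exists_of_lt (lt_top_iff_ne_top.2 fun e : M = ⊤ => by simp [e] at hi)
  have h4 := H5.sup_zpowers_eq_top_of_isCoatom (H5.isCoatom_of_index_prime (hi ▸ Fact.out)) hs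
  set u : ℕ → G := fun j => (fun u => ⁅s, u⁆)^[j] t with hu
  have hu0 : u 0 = t := rfl
  have hu1 : ∀ j, u (j + 1) = ⁅s, u j⁆ := fun j => Function.iterate_succ_apply' _ _ _
  have hu2 : ∀ j, u j ∈ lc G j := engel_mem_lc s t
  have hu3 : ∀ j, j + 3 ≤ n → u (j + 1) ∉ lc G (j + 2) := fun j => by
    induction j with
    | zero =>
      refine fun hj e => h.not_lc_le (i := 1) hj (commutator_le.2 fun a _ b _ => ?_)
      refine commutator_le_of_gens (S := {s, t}) (frattini_nongenerating (eq_top_iff.2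
        (h4.ge.trans (sup_le (h3.ge.trans (sup_le (h.frattini_eq ▸ le_sup_right) (le_sup_of_le_left
          (zpowers_le.2 (subset_closure (by simp)))))) (le_sup_of_le_left
            (zpowers_le.2 (subset_closure (by simp)))))))) ?_ a b
      rintro _ (rfl | rfl) _ (rfl | rfl)
      · simp
      · exact e
      · exact comm_mem_comm e
      · simp
    | succ j ih => exact fun hj => hu1 _ ▸ h.comm_not_mem (hM j hj ▸ hs) (hu2 _) (ih (by omega))
  have hu4 : ∀ j, j + 3 ≤ n → ⁅cls 0 t, cls j (u j)⁆ = 0 := fun j hj => by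
    obtain _ | j := j
    · exact lie_self _
    rw [lie_cls_zero t (hu2 _)]
    exact cls_zero ((hM j hj).le ht _ (hu2 _))
  obtain ⟨j, rfl⟩ : ∃ j, n = j + 3 := ⟨n - 3, by omega⟩
  have hz : u (j + 1) ∈ center G := h.center_eq ▸ hu2 _
  have hz1 : u (j + 1) ≠ 1 := fun e => hu3 j le_rfl (e ▸ one_mem _)
  have hx := eq_zpowers_of_card h.card_center hA.cen (by
    rintro rfl; exact absurd (hA.ord.symm.trans orderOf_one) (by omega))
  have ho : orderOf (u (j + 1)) = 3 := by
    rw [← Nat.card_zpowers, eq_zpowers_of_card h.card_center hz hz1, h.card_center]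
  refine h2 (h.frattini_eq ▸ hA.star t fun β hβ => ?_)
  have h5 : β t ∈ M := by
    rw [hM 0 hn] at ht ⊢
    intro k hk
    simpa [map_commutatorElement] using aut_mem_lc β (ht _ (aut_mem_lc β.symm hk))
  obtain ⟨g, hg, d, hd⟩ := (H5.mem_sup_zpowers_iff_nat (le_normalizer_of_normal (mem_top t))).1 (h3 ▸ h5)
  obtain ⟨w, hw, e, he⟩ := (H5.mem_sup_zpowers_iff_nat (le_normalizer_of_normal (mem_top s))).1
    (h4 ▸ mem_top (β s))
  obtain ⟨g', hg', k, rfl⟩ := (H5.mem_sup_zpowers_iff_nat (le_normalizer_of_normal (mem_top t))).1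
    (h3 ▸ hw)
  have h6 : cls 0 (β s) = k • cls 0 t + e • cls 0 s := by
    rw [he, cls_mul (mem_lc_zero _) (mem_lc_zero _), cls_mul (mem_lc_zero _) (mem_lc_zero _),
      cls_zero hg', zero_add, cls_pow (mem_lc_zero _), cls_pow (mem_lc_zero _)]
  have h7 : ∀ i, i + 2 ≤ j + 3 → cls i (β (u i)) = (e ^ i * d) • cls i (u i) := fun i => by
    induction i with
    | zero =>
      intro _
      rw [hu0, hd, cls_mul (mem_lc_zero _) (mem_lc_zero _), cls_zero hg, cls_pow (mem_lc_zero _),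
        pow_zero, one_mul]
      exact zero_add _
    | succ i ih =>
      intro hi
      rw [hu1, map_commutatorElement, ← lie_cls_zero _ (aut_mem_lc β (hu2 i)), ih (by omega), h6,
        ← lie_cls_zero _ (hu2 i), lie_nsmul, add_lie, nsmul_lie, nsmul_lie, hu4 i hi, smul_zero,
        zero_add, smul_smul]
      congr 1; ring
  have h8 := h7 (j + 1) le_rfl
  rw [hA.fix_zpowers hβ (hx ▸ hz), ← cls_pow (hu2 _), ← sub_eq_zero, sub_eq_add_neg,
    ← cls_inv (pow_mem (hu2 _) _), ← cls_mul (hu2 _) (inv_mem (pow_mem (hu2 _) _)),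
    cls_eq_zero_iff (mul_mem (hu2 _) (inv_mem (pow_mem (hu2 _) _))), h.lc_eq_bot le_rfl, mem_bot,
    mul_inv_eq_one] at h8
  have h9 : 1 ≡ e ^ (j + 1) * d [MOD 3] := ho ▸ pow_eq_pow_iff_modEq.1 (by rw [pow_one]; exact h8)
  have h10 : (d : ZMod 3) = 1 := by
    have h10 := (ZMod.natCast_eq_natCast_iff _ _ _).2 h9
    obtain ⟨q, hq⟩ : ∃ q, j + 1 = 2 * (q + 1) := ⟨r - 2, by omega⟩
    rw [hq, pow_mul] at h10
    push_cast at h10
    rcases sq_three e with h11 | h11
    · rw [h11] at h10; simp at h10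
    · rw [h11] at h10; simpa using h10.symm
  obtain ⟨q, rfl⟩ : ∃ q, d = 3 * q + 1 :=
    ⟨d / 3, by have := (ZMod.natCast_eq_natCast_iff' d 1 3).1 (by simpa using h10); omega⟩
  rw [hd, pow_succ, ← mul_assoc, mul_inv_cancel_right, pow_mul, h.frattini_eq]
  exact mul_mem hg (pow_mem (h.pow_mem_lc_one t) q)

end three

theorem Act.concl {x : G} {B : Set (MulAut G)} (hA : Act p x B) (h2 : p ≠ 2) (hG : IsPGroup p G)
    (hrk : ∀ A : Subgroup G, IsElementaryAbelian p A → Nat.card A ≤ p ^ 2) (hm : ¬ IsMetacyclic G) :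
    (IsExtraspecial p G ∧ Nat.card G = p ^ 3 ∧ ∀ y : G, y ^ p = 1) ∨
      (p = 3 ∧ ∃ k : ℕ, 2 ≤ k ∧ Nat.card G = 3 ^ (2 * k + 1) ∧
        ∃ _ : Group.IsNilpotent G, Group.nilpotencyClass G = 2 * k) := by
  rcases cases h2 hG hrk with h | ⟨a, b, c, m, s, h⟩ | ⟨rfl, n, hn, h⟩
  · exact absurd h hm
  · exact Or.inl (hA.fam h2 hrk h)
  · obtain ⟨k, rfl⟩ := hA.mc_odd h hn
    exact Or.inr ⟨rfl, k, by omega, h.card, hG.isNilpotent, h.class_eq⟩

end H25.R2
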