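import Mathlib
import Cfsg.Agent.Base
import Cfsg.Agent.Lib.ZPs.Rk2
import Cfsg.Agent.Lib.BG4.MetaAct
import Cfsg.Agent.Lib.H81.Yoshida
import Cfsg.Agent.Lib.Transfer.Control
import Cfsg.Agent.Lib.LocEven.Isolated

/-!
# Sylow subgroups of rank two containing an isolated element
-/

set_option autoImplicit false
set_option linter.style.haveILetI false

namespace H25.R2

open Subgroup Cfsg H93
open scoped commutatorElement

universe u

variable {G : Type u} [Group G] [Finite G] {p : ℕ} [hp : Fact p.Prime]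

theorem mem_of_central {P F : Subgroup G} [P.Normal] [F.Normal] (hP : IsPGroup p P)
    (hi : P.index.Coprime p) (hF : ⁅P, P⁆ ≤ F) (hc : P ≤ commutator G) {t : G} (ht : t ∈ P)
    (h : ∀ g : G, ⁅g, t⁆ ∈ F) : t ∈ F := by
  have hf := QuotientGroup.mk'_surjective F
  have h1 : IsMulCommutative (P.map (QuotientGroup.mk' F)) := ⟨⟨by
    rintro ⟨_, a, ha, rfl⟩ ⟨_, b, hb, rfl⟩
    exact Subtype.ext (commutatorElement_eq_one_iff_mul_comm.1 ((QuotientGroup.eq_one_iff ⁅a, b⁆).2
      (hF (commutator_mem_commutator ha hb))))⟩⟩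
  obtain ⟨k, hk⟩ := IsPGroup.iff_card.1 (hP.map (QuotientGroup.mk' F))
  have h2 := H4.inf_commutator_inf_center_eq_bot h1
    (hk ▸ Nat.Coprime.pow_left k (hi.coprime_dvd_left (index_map_dvd _ hf)).symm)
  refine (QuotientGroup.eq_one_iff t).1 (mem_bot.1 (h2 ▸ ⟨⟨⟨t, ht, rfl⟩, ?_⟩, mem_center_iff.2 fun g => ?_⟩))
  · have := mem_map_of_mem (QuotientGroup.mk' F) (hc ht)
    rwa [commutator_def, map_commutator, map_top_of_surjective _ hf] at this
  · obtain ⟨g, rfl⟩ := hf g
    exact commutatorElement_eq_one_iff_mul_comm.1 ((QuotientGroup.eq_one_iff ⁅g, t⁆).2 (h g))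

theorem of_le_commutator (h2 : p ≠ 2) (S : Sylow p G)
    (hrk : ∀ A : Subgroup (S : Subgroup G), IsElementaryAbelian p A → Nat.card A ≤ p ^ 2)
    (hN : (S : Subgroup G) ≤ ⁅normalizer ((S : Subgroup G) : Set G), normalizer ((S : Subgroup G) : Set G)⁆)
    {x : G} (hx : x ∈ (S : Subgroup G)) (ho : orderOf x = p)
    (hc : normalizer ((S : Subgroup G) : Set G) ≤ centralizer {x}) :
    (IsExtraspecial p (S : Subgroup G) ∧ Nat.card (S : Subgroup G) = p ^ 3 ∧
        ∀ y : (S : Subgroup G), y ^ p = 1) ∨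
      (p = 3 ∧ ∃ k : ℕ, 2 ≤ k ∧ Nat.card (S : Subgroup G) = 3 ^ (2 * k + 1) ∧
        ∃ _ : Group.IsNilpotent (S : Subgroup G), Group.nilpotencyClass (S : Subgroup G) = 2 * k) := by
  have hi0 := H4.coprime_index_sylow S
  have hP := S.isPGroup'
  generalize (S : Subgroup G) = P at *
  set N := normalizer (P : Set G) with hNd
  have hPN : P ≤ N := le_normalizer
  haveI : (P.subgroupOf N).Normal := normal_in_normalizer
  have hP' : IsPGroup p (P.subgroupOf N) := hP.of_equiv (subgroupOfEquivOfLe hPN).symm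
  have hi : (P.subgroupOf N).index.Coprime p := hi0.coprime_dvd_left (relIndex_dvd_index_of_le hPN)
  obtain ⟨k, hk⟩ := IsPGroup.iff_card.1 hP'
  obtain ⟨B, hB⟩ := exists_right_complement'_of_coprime (N := P.subgroupOf N)
    (hk ▸ Nat.Coprime.pow_left k hi.symm)
  have hBc : (Nat.card B).Coprime p := hB.symm.index_eq_card ▸ hi
  set F := (frattini P).map P.subtype with hF
  have hFn : ∀ n ∈ N, ∀ f ∈ F, n * f * n⁻¹ ∈ F := by
    rintro n hn _ ⟨f, hf, rfl⟩
    exact ⟨P.normalizerMonoidHom ⟨n, hn⟩ f, (characteristic_iff_le_comap.1 inferInstance _) hf, rfl⟩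
  haveI : (F.subgroupOf N).Normal := ⟨fun f hf n => hFn n n.2 f hf⟩
  have hPF : ⁅P, P⁆ ≤ F := H5.commutator_le_map_frattini hP
  have star : ∀ t ∈ P, (∀ b ∈ B, ⁅(b : G), t⁆ ∈ F) → t ∈ F := fun t ht h => by
    refine mem_of_central (F := F.subgroupOf N) hP' hi
      (commutator_le.2 fun a ha b hb => hPF (commutator_mem_commutator ha hb))
      (fun a ha => ?_) (t := ⟨t, hPN ht⟩) ht fun g => ?_
    · obtain ⟨c, hc, e⟩ := (map_subtype_commutator N).ge (hN ha)
      exact Subtype.ext e ▸ hc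
    · exact (hB.sup_eq_top.ge.trans (sup_le (fun a ha _ e => e ▸
        hPF (commutator_mem_commutator ha ht)) fun b hb _ e => e ▸ h b hb) :
          ⊤ ≤ cm {⟨t, hPN ht⟩} (F.subgroupOf N)) (mem_top g) _ rfl
  have hA : Act p (⟨x, hx⟩ : P) (P.normalizerMonoidHom '' B) :=
    ⟨(Subgroup.orderOf_coe _).symm.trans ho,
      mem_center_iff.2 fun g => Subtype.ext (mem_centralizer_singleton_iff.1 (hc (hPN g.2))), by
        rintro _ ⟨b, -, rfl⟩
        exact Subtype.ext (H70.mem_centralizer_singleton_iff_conj.1 (hc b.2)),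
      fun t h => (mem_map_iff_mem P.subtype_injective).1 (star t t.2 fun b hb =>
        mem_map_of_mem P.subtype (h _ ⟨b, hb, rfl⟩)), by
        rintro _ ⟨b, hb, rfl⟩
        exact hBc.coprime_dvd_left ((orderOf_map_dvd _ b).trans (B.orderOf_dvd_natCard hb))⟩
  refine hA.concl h2 hP hrk fun hm => ?_
  obtain ⟨-, h3, h4, -⟩ := H48.coprime_action_on_metacyclic h2 hP hm (A := B.map N.subtype)
    (map_subtype_le _) (card_map_of_injective N.subtype_injective ▸ hBc)
  have h5 : P ⊓ centralizer (B.map N.subtype : Set G) ≤ F := fun t ht => star t ht.1 fun b hb => by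
    rw [commutatorElement_eq_one_iff_mul_comm.2 (ht.2 b ⟨b, hb, rfl⟩)]; exact one_mem _
  have h6 : ⁅P, B.map N.subtype⁆ ≤ P := le_sup_left.trans h3.le
  have h7 : (⁅P, B.map N.subtype⁆).subgroupOf P = ⊤ := frattini_nongenerating
    (map_injective P.subtype_injective (by
      rw [Subgroup.map_sup, map_subgroupOf_eq_of_le h6, ← MonoidHom.range_eq_map, subtype_range]
      exact le_antisymm (sup_le h6 (map_subtype_le _)) (h3.ge.trans (sup_le_sup_left h5 _))))
  have h8 : x ∈ (⊥ : Subgroup G) := h4 ▸ ⟨subgroupOf_eq_top.1 h7 hx, hx, by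
    rintro _ ⟨b, -, rfl⟩
    exact mem_centralizer_singleton_iff.1 (hc b.2)⟩
  exact hp.out.ne_one (by rw [← ho, mem_bot.1 h8, orderOf_one])

theorem inf_commutator_eq (h2 : p ≠ 2) (S : Sylow p G)
    (hrk : ∀ A : Subgroup (S : Subgroup G), IsElementaryAbelian p A → Nat.card A ≤ p ^ 2) :
    (S : Subgroup G) ⊓ commutator G = (S : Subgroup G) ⊓
      ⁅normalizer ((S : Subgroup G) : Set G), normalizer ((S : Subgroup G) : Set G)⁆ := by
  by_contra h
  have hW : IsWeaklyClosed (S : Subgroup G) S := ⟨le_rfl, fun g hg =>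
    eq_of_le_of_card_ge hg (card_map_of_injective (MulAut.conj g).injective).ge⟩
  obtain ⟨u, h1, -, z, h3, M, h4, -, h6, h7, h8, K, h9, h10, hK⟩ := H81.yoshida_commutator S hW h
  rw [inf_top_eq] at h9 h10
  rw [sup_eq_left.2 (zpowers_le.2 h1)] at h6 h7 h8
  have hS := S.isPGroup'
  let M' := M.subgroupOf (S : Subgroup G)
  haveI : M'.Normal := (normal_subgroupOf_iff_le_normalizer h6).2 h8
  let N : Subgroup (S : Subgroup G) := (frattini M').map M'.subtype
  have hN : N.Normal := inferInstance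
  have hNK : N ≤ K.comap (S : Subgroup G).subtype := by
    refine (H5.map_frattini_le_iff (hS.to_subgroup _)).2 ⟨?_, fun x hx => h10 x hx⟩
    rw [← map_le_iff_le_comap, map_commutator, subgroupOf_map_subtype]
    exact (commutator_mono inf_le_left inf_le_left).trans h9
  let z' : ↥(S : Subgroup G) := ⟨z, h3⟩
  let u' : ↥(S : Subgroup G) := ⟨u, h1⟩
  let f : ↥(S : Subgroup G) → ↥(S : Subgroup G) := fun y => y⁻¹ * z'⁻¹ * y * z'
  have h11 : ∀ j, (f^[j] u').1 = (fun y : G => y⁻¹ * z⁻¹ * y * z)^[j] u := fun j => by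
    induction j with
    | zero => rfl
    | succ j ih => rw [Function.iterate_succ_apply', Function.iterate_succ_apply', ← ih]; rfl
  have h12 : ∀ j, f^[j + 2] u' ∈ N := fun j => by
    induction j with
    | zero =>
      have := comm_two_mem h2 hS hrk (M := M') h7 (u := u') h4 (u'⁻¹ * z'⁻¹ * u') z'⁻¹
      rwa [show ⁅⁅u', u'⁻¹ * z'⁻¹ * u'⁆, z'⁻¹⁆ = f (f u') by
        simp only [f, commutatorElement_def]; group] at this
    | succ j ih =>
      rw [Function.iterate_succ_apply']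
      simpa [f, mul_assoc] using N.mul_mem (N.inv_mem ih) (hN.conj_mem _ ih z'⁻¹)
  obtain ⟨j, hj⟩ : ∃ j, p - 1 = j + 2 := ⟨p - 3, by have := hp.out.two_le; omega⟩
  exact hK (by rw [hj, ← h11]; exact hNK (h12 j))

/-- The structure of a Sylow subgroup of rank two of a perfect group with an isolated element. -/
theorem sylow_perfect (h2 : p ≠ 2) (hG : commutator G = ⊤) (S : Sylow p G)
    (hrk : ∀ A : Subgroup (S : Subgroup G), IsElementaryAbelian p A → Nat.card A ≤ p ^ 2)
    {x : G} (hx : x ∈ (S : Subgroup G)) (ho : orderOf x = p) (hiso : IsIsolated x) :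
    (IsExtraspecial p (S : Subgroup G) ∧ Nat.card (S : Subgroup G) = p ^ 3 ∧
        ∀ y : (S : Subgroup G), y ^ p = 1) ∨
      (p = 3 ∧ ∃ k : ℕ, 2 ≤ k ∧ Nat.card (S : Subgroup G) = 3 ^ (2 * k + 1) ∧
        ∃ _ : Group.IsNilpotent (S : Subgroup G), Group.nilpotencyClass (S : Subgroup G) = 2 * k) := by
  refine of_le_commutator h2 S hrk ?_ hx ho (H70.Iso.normalizer_le hiso S.isPGroup' hx)
  have := inf_commutator_eq h2 S hrk
  rw [hG, inf_top_eq] at this
  exact this.le.trans inf_le_right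

omit [Finite G] hp in
theorem rank_of_injective {H : Type*} [Group H] (h : PRankLE p 2 G) (f : H →* G)
    (hf : Function.Injective f) (A : Subgroup H) (hA : IsElementaryAbelian p A) :
    Nat.card A ≤ p ^ 2 := by
  rw [← card_map_of_injective hf]
  haveI := hA.1
  refine h _ inferInstance ?_
  rintro _ ⟨a, ha, rfl⟩
  rw [← map_pow, hA.2 a ha, map_one]

end H25.R2
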